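import Cfsg.Agent.H911.RC.ExcThree
import Cfsg.Agent.H566.RC.TypeI

/-!
# S3510, triality of `PΩ₈⁺(q)`, type (iv): characteristic three, `τ` linear (helper911)

* `conj_idem` : an idempotent of `dia τ` of nonzero norm can be moved to `one8` by a semisimilitude `N`, `Ψ(N)` conjugates
  `xt hG τ` to `xt hG τ'`;
* `conj_one` : if the idempotent is a para-unit, `τ' = 1`;
* `fr_conj` : transport of the frame;
* `type_iv` : the theorem.
-/

set_option autoImplicit false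

namespace Cfsg.Agent.H911.RC

open Module QuadraticMap Cfsg.Agent.LieClassical.OrthCore Cfsg.Agent.LieClassical.OrthTrans
  Cfsg.Agent.LieClassical.OrthSimple Cfsg.Agent.ClassicalGeometry.OrthAut1
  Cfsg.Agent.ClassicalGeometry.OrthSemi Cfsg.Agent.H198.Classes
  Cfsg.Agent.LieClassical.QuadForms Cfsg.Agent.H198.ClassesPlus
  Cfsg.Agent.ClassicalGeometry.TrialityOct Cfsg.Agent.ClassicalGeometry.Triality
  Cfsg.Agent.ClassicalGeometry.TrialitySpaces Cfsg.Agent.H198.TriBase Cfsg.Agent.H198.TriAut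
  Cfsg.Agent.H198.TriDia Cfsg.Agent.H198.TriTC Cfsg.Agent.H198.TriCls Cfsg.Agent.H106.RC Cfsg.Agent.H675.RC
open Cfsg.Agent.H566.RC (Au Kp Rp La up)
open Cfsg.Agent.H93.RC (Lf)

universe u

section conj

variable {F : Type u} [Field F]

/-- an idempotent moved to `one8` -/
theorem conj_idem (hG : Good (plusForm 4 F)) {τ : G8 F} (h : Au τ) {e : V8 F} (he : dia τ e e = e)
    (hne : plusForm 4 F e ≠ 0) :
    ∃ N τ' : G8 F, TriS τ' τ' τ' ∧ τ' ^ 3 = 1 ∧ Psi _ N * xt hG τ * (Psi _ N)⁻¹ = xt hG τ' ∧ N.1 e = one8 F ∧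
      ∀ u w, dia τ' (N.1 u) (N.1 w) = N.1 (dia τ u w) := by
  have inv_apply : ∀ (N : G8 F) (x : V8 F), N⁻¹.1 (N.1 x) = x := fun N x => N.1.symm_apply_apply x
  have h3 : (Psi _ τ * rho hG) ^ 3 = 1 := xt_pow_three hG h.tri h.cube
  obtain ⟨A, A₁, A₂, hA, hA1, hA2, -⟩ := step hG h.tri (tri_lG e hne).inv
  set N := (lG e hne)⁻¹ with hN
  have hNe : N.1 e = one8 F := by
    have h1 : (lG e hne).1 (one8 F) = e := by rw [lG_apply, omul_one]
    have h2 := inv_apply (lG e hne) (one8 F)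
    rwa [h1] at h2
  have hA3 := gen_cj3 hA1 h3
  have hAe : mo A A₂ (one8 F) (one8 F) = one8 F := by
    have := hA2 e e
    rwa [mo_eq_dia h.tri, he, hNe] at this
  have ha : plusForm 4 F (A⁻¹.1 (one8 F)) ≠ 0 := by
    obtain ⟨σ', c', hs'⟩ := A⁻¹.2
    rw [hs'.form, norm_one8, map_one, mul_one]
    exact hs'.ne
  obtain ⟨N', N'₁, N'₂, hN', hN1, hN2⟩ := exists_N ha
  obtain ⟨B, B₁, B₂, hB, hB1, hB2, hB3⟩ := step hG hA hN'
  have hBe : mo B B₂ (one8 F) (one8 F) = one8 F := by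
    have := hB2 (one8 F) (one8 F)
    rwa [hAe, hN1] at this
  have hBi : B⁻¹.1 (one8 F) = one8 F := by
    have := hB3 (one8 F)
    rw [hN1, hN2] at this
    rw [this, oconj_one8]
  obtain ⟨hτ, hB2'⟩ := tri_of_one hB hBe hBi
  have hτ3 := pow_three_of hG hτ (gen_cj3 hB1 hA3)
  refine ⟨N' * N, B, hτ, hτ3, ?_, ?_, fun u w => ?_⟩
  · rw [map_mul (Psi (plusForm 4 F)) N' N]
    exact gen_cj hA1 hB1
  · change N'.1 (N.1 e) = one8 F
    rw [hNe, hN1]
  · change dia B (N'.1 (N.1 u)) (N'.1 (N.1 w)) = N'.1 (N.1 (dia τ u w))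
    rw [← mo_eq_dia hτ, ← mo_eq_dia h.tri, ← hA2, ← hB2, hB2']

/-- a para-unit gives `τ' = 1` -/
theorem conj_one {τ τ' N : G8 F} (hτ' : TriS τ' τ' τ') {e : V8 F} (hQe : plusForm 4 F e = 1)
    (he : N.1 e = one8 F) (hd : ∀ u w, dia τ' (N.1 u) (N.1 w) = N.1 (dia τ u w))
    (hp : ∀ x, dia τ e x = polar (plusForm 4 F) x e • e - x) : τ' = 1 := by
  obtain ⟨ν, c, hs⟩ := N.2
  have hc : c = 1 := by
    have := hs.form e
    rw [he, norm_one8, hQe, map_one, mul_one] at this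
    exact this.symm
  have key : ∀ x, τ'.1 (oconj (N.1 x)) = oconj (N.1 x) := by
    intro x
    have e1 := hd e x
    rw [he, hp, hs.sub, hs.smul, he] at e1
    have e2 : dia τ' (one8 F) (N.1 x) = τ'.1 (oconj (N.1 x)) := by
      rw [dia, oconj_one8, aut_one hτ'.inv, one_omul]
    have e3 := hs.polar x e
    rw [he, hc, one_mul] at e3
    rw [← e2, e1, ← e3, ← oconj_eq]
  apply Subtype.ext
  ext1 y
  have := key (N⁻¹.1 (oconj y))
  have e4 : N.1 (N⁻¹.1 (oconj y)) = oconj y := N.1.apply_symm_apply _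
  rw [e4, oconj_oconj] at this
  exact this

theorem gen_cm1 {G : Type*} [Group G] {a b c : G} (h : a * b = b * a) :
    c * a * c⁻¹ * (c * b * c⁻¹) = c * b * c⁻¹ * (c * a * c⁻¹) := by
  have e : ∀ a b : G, c * a * c⁻¹ * (c * b * c⁻¹) = c * (a * b) * c⁻¹ := fun a b => by group
  rw [e, e, h]

/-- transport of the frame -/
theorem fr_conj {G ι : Type*} [Group G] {hG : Good (plusForm 4 F)} {N₀ : Subgroup G} {x : ι → G} {r : ι → ℕ}
    {σ : P8 F →* G} {i₁ : ι} {τ : G8 F} {M : ι → G8 F} (fr : Fr hG N₀ x r σ i₁ τ M) {N τ' : G8 F}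
    (hτ' : TriS τ' τ' τ') (h3' : τ' ^ 3 = 1) (hnf : NF τ') (hN : Psi _ N * xt hG τ * (Psi _ N)⁻¹ = xt hG τ')
    (hd : ∀ u w, dia τ' (N.1 u) (N.1 w) = N.1 (dia τ u w)) :
    ∃ σ' : P8 F →* G, Fr hG N₀ x r σ' i₁ τ' (fun j => N * M j * N⁻¹) := by
  obtain ⟨σ', h1, h2⟩ := fr.rp.change (Psi _ N)
  refine ⟨σ', h1, fr.three, hτ', h3', hnf, ?_, fun j hj => ?_, fun j u w => ?_, fun j => ?_, fun j k => ?_,
    fun j hj e => ?_, ?_⟩
  · rw [← hN]
    exact h2 _ _ fr.la
  · apply La.lf.1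
    have := h2 _ _ (La.lf.2 (fr.lf j hj))
    have e : Psi (plusForm 4 F) (N * M j * N⁻¹) = Psi _ N * Psi _ (M j) * (Psi _ N)⁻¹ := by
      rw [map_mul (Psi (plusForm 4 F)) (N * M j) N⁻¹, map_mul (Psi (plusForm 4 F)) N (M j), map_inv (Psi (plusForm 4 F)) N]
    rw [e]
    exact this
  · have e1 : ∀ v : V8 F, N.1 (N⁻¹.1 v) = v := fun v => N.1.apply_symm_apply v
    change N.1 ((M j).1 (N⁻¹.1 (dia τ' u w))) = dia τ' (N.1 ((M j).1 (N⁻¹.1 u))) (N.1 ((M j).1 (N⁻¹.1 w)))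
    rw [hd, ← fr.ex j]
    congr 2
    apply N.1.injective
    rw [← hd, e1, e1, e1]
  · rw [conj_pow, fr.pow, mul_one, mul_inv_cancel]
  · exact gen_cm1 (fr.comm j k)
  · apply fr.ne j hj
    have : N * M j * N⁻¹ = N * 1 * N⁻¹ := by rw [e, mul_one, mul_inv_cancel]
    exact mul_left_cancel (mul_right_cancel this)
  · rw [fr.one, mul_one, mul_inv_cancel]

/-- conjugates of linear semisimilitudes are linear -/
theorem lin_conj {M : G8 F} (hM : H198.TriDia.IsLin M) (N : G8 F) : H198.TriDia.IsLin (N * M * N⁻¹) := by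
  obtain ⟨c, hc⟩ := hM
  obtain ⟨ν, d, hd⟩ := N.2
  have h := (hd.mul hc).mul hd.inv
  have e : ν.symm.trans ((RingEquiv.refl F).trans ν) = RingEquiv.refl F := by
    ext a
    exact ν.apply_symm_apply a
  rw [e] at h
  exact ⟨_, h⟩

end conj

/-- products of pairwise different primes -/
theorem squarefree_prod {ι : Type*} {r : ι → ℕ} (hr : ∀ i, (r i).Prime) (hinj : Function.Injective r) (A : Finset ι) :
    Squarefree (∏ i ∈ A, r i) := by
  classical
  induction A using Finset.induction_on with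
  | empty => simp
  | insert i A hi ih =>
    rw [Finset.prod_insert hi, Nat.squarefree_mul]
    · exact ⟨(hr i).prime.squarefree, ih⟩
    · refine Nat.Coprime.prod_right fun j hj => ?_
      exact (Nat.coprime_primes (hr i) (hr j)).2 fun h => hi (by rw [hinj h]; exact hj)

section main

variable {F : Type} [Field F] [Finite F] {G Ω : Type} [Group G] [Finite G] [MulAction G Ω] [Nonempty Ω]
  {N : Subgroup G} {σ : P8 F →* G}

/-- **type (iv)** -/
theorem type_iv (hG : Good (plusForm 4 F)) (hE : Env G Ω N) (hIH : IH (Nat.card (P (plusForm 4 F))))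
    {ι : Type} [Finite ι] {x : ι → G} {r : ι → ℕ} (hx : PF x r) (hcov : Cov Ω x) {i₁ : ι} {τ : G8 F} {M : ι → G8 F}
    (fr : Fr hG N x r σ i₁ τ M) (h3 : (3 : F) = 0) (hτ : H198.TriDia.IsLin τ) (hl : ∀ j, H198.TriDia.IsLin (M j)) :
    False := by
  classical
  have := Fintype.ofFinite ι
  have h : Au τ := ⟨fr.tri, hτ, fr.cube⟩
  have hc : CharP F 3 := (CharP.charP_iff_prime_eq_zero Nat.prime_three).2 (by exact_mod_cast h3)
  have hr3 : ∀ j, j ≠ i₁ → r j ≠ 3 := fun j hj h => hj (hx.inj (h.trans fr.three.symm))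
  by_cases hex : ∃ j, j ≠ i₁
  swap
  · push Not at hex
    apply hx.ne i₁
    apply hE.single
    intro ω
    obtain ⟨j, hj⟩ := hcov ω
    rwa [hex j] at hj
  have hgam : ∀ x y : O (plusForm 4 F), gamO _ x = gamO _ y → x = y := by
    intro x y e
    apply Subtype.ext
    apply LinearEquiv.ext
    intro v
    exact congrArg (fun N : G8 F => N.1 v) e
  have hone : ∀ j, IsSS (plusForm 4 F) (RingEquiv.refl F) 1 (M j).1 := by
    intro j
    obtain ⟨c, hcj⟩ := hl j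
    have e3 := Ex.mult fr.tri fr.cube (fr.ex j) hcj
    rwa [e3] at hcj
  choose g hg using fun j => exists_gamO (hone j)
  have hgj : ∀ j v, (M j).1 v = (g j : V8 F ≃ₗ[F] V8 F) v := by
    intro j v
    rw [← hg j]
    rfl
  obtain ⟨s, hs, hgs, hn⟩ := exists_gen g r hx.prime hx.inj
    (fun i => hgam _ _ (by rw [map_pow, hg, fr.pow, map_one]))
    (fun i j => hgam _ _ (by rw [map_mul, map_mul, hg, hg]; exact fr.comm i j)) (Finset.univ.erase i₁)
  have hsq : Squarefree (∏ j ∈ Finset.univ.erase i₁, r j) := squarefree_prod hx.prime hx.inj _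
  have hn3 : ¬ 3 ∣ ∏ j ∈ Finset.univ.erase i₁, r j := by
    intro h4
    obtain ⟨j, hj, hj3⟩ := (Nat.prime_three.prime.dvd_finsetProd_iff _).1 h4
    exact hr3 j (Finset.ne_of_mem_erase hj) ((Nat.prime_dvd_prime_iff_eq Nat.prime_three (hx.prime j)).1 hj3).symm
  have hm : ∀ u w, (s : V8 F ≃ₗ[F] V8 F) (dia τ u w) = dia τ ((s : V8 F ≃ₗ[F] V8 F) u) ((s : V8 F ≃ₗ[F] V8 F) w) := by
    refine Subgroup.closure_induction (p := fun (s : O (plusForm 4 F)) _ => ∀ u w,
      (s : V8 F ≃ₗ[F] V8 F) (dia τ u w) = dia τ ((s : V8 F ≃ₗ[F] V8 F) u) ((s : V8 F ≃ₗ[F] V8 F) w))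
      ?_ ?_ ?_ ?_ hs
    · rintro _ ⟨j, -, rfl⟩ u w
      rw [← hgj, ← hgj, ← hgj, fr.ex]
    · intro u w
      rfl
    · intro x y _ _ hx hy u w
      change (x : V8 F ≃ₗ[F] V8 F) ((y : V8 F ≃ₗ[F] V8 F) (dia τ u w)) = _
      rw [hy, hx]
      rfl
    · intro x _ hx u w
      apply (x : V8 F ≃ₗ[F] V8 F).injective
      rw [hx]
      change (x : V8 F ≃ₗ[F] V8 F) ((x : V8 F ≃ₗ[F] V8 F).symm (dia τ u w)) =
        dia τ ((x : V8 F ≃ₗ[F] V8 F) ((x : V8 F ≃ₗ[F] V8 F).symm u)) ((x : V8 F ≃ₗ[F] V8 F) ((x : V8 F ≃ₗ[F] V8 F).symm w))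
      rw [LinearEquiv.apply_symm_apply, LinearEquiv.apply_symm_apply, LinearEquiv.apply_symm_apply]
  have hsf : ∀ x : V8 F, (s : V8 F ≃ₗ[F] V8 F) x = x → ∀ j, j ≠ i₁ → (M j).1 x = x := by
    intro x hx j hj
    obtain ⟨k, hk⟩ := hgs j (Finset.mem_erase.2 ⟨hj, Finset.mem_univ _⟩)
    rw [hgj, ← hk]
    have key : ∀ t ∈ Subgroup.zpowers s, (t : V8 F ≃ₗ[F] V8 F) x = x := by
      intro t ht
      rw [Subgroup.zpowers_eq_closure] at ht
      refine Subgroup.closure_induction (p := fun (t : O (plusForm 4 F)) _ => (t : V8 F ≃ₗ[F] V8 F) x = x)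
        ?_ ?_ ?_ ?_ ht
      · intro y hy
        rw [Set.mem_singleton_iff.1 hy, hx]
      · rfl
      · intro a b _ _ ha hb
        change (a : V8 F ≃ₗ[F] V8 F) ((b : V8 F ≃ₗ[F] V8 F) x) = x
        rw [hb, ha]
      · intro a _ ha
        change (a : V8 F ≃ₗ[F] V8 F).symm x = x
        rw [LinearEquiv.symm_apply_eq, ha]
    exact key _ ⟨k, rfl⟩
  rcases exists_Kp_fix hG h3 h s.2 hm (congrArg Subtype.val hn) hn3 with
    ⟨a, b, hk, ha, hb⟩ | ⟨hcd, z, w, S, hz, hw, hfix⟩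
  · exact H566.RC.kill hG hE fr.rp (p := 3) (fun j _ => hx.prime j) (fun j _ => hx.pow j) (fun j _ => hx.ne j)
      hx.comm hcov h fr.la fr.lf (fun j _ => hl j) (fun j _ => fr.ex j) hk (fun j hj => hsf a ha j hj)
      (fun j hj => hsf b hb j hj) (fun i j _ _ e => hx.inj e) (fun _ _ _ => rfl) hex (H566.RC.rc_W hG h hk hIH)
  · -- `z` is a para-unit
    have h2 := two_ne h3
    have hA := L_An hG hcd h3 h S s.2 hm (congrArg Subtype.val hn) hsq hn3 hz hw hfix
    have hB := L_An hG hcd h3 h (Spl.neg h S) s.2 hm (congrArg Subtype.val hn) hsq hn3 hz (by rw [map_neg, hw])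
      (fun x hx => by
        obtain ⟨α, β, e⟩ := hfix x hx
        exact ⟨α, -β, by rw [e, neg_smul_neg]⟩)
    have hp : ∀ x, dia τ z x = polar (plusForm 4 F) x z • z - x := by
      intro x
      set α := polar (plusForm 4 F) z x / 2 with hα
      set β := -(polar (plusForm 4 F) w x / 2) with hβ
      obtain ⟨y, hy⟩ : ∃ y, y = x - (α • z + β • w) := ⟨_, rfl⟩
      have h1 : polar (plusForm 4 F) z y = 0 := by
        rw [hy, polar_sub_right, polar_add_right, polar_smul_right, polar_smul_right, S.pzz, S.perp, smul_eq_mul,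
          smul_eq_mul, hα]
        field_simp
        ring
      have h4 : polar (plusForm 4 F) w y = 0 := by
        rw [hy, polar_sub_right, polar_add_right, polar_smul_right, polar_smul_right, S.pwz, S.pww, smul_eq_mul,
          smul_eq_mul, hβ]
        field_simp
        ring
      have hx : x = α • z + β • w + y := by rw [hy]; abel
      have hLy : dia τ z y = -y := by
        obtain ⟨x₂, hx₂, y₂, hy₂, e⟩ := W_dec h S h3 h1 h4
        rw [e, h.dia_add_right, hA x₂ hx₂, hB y₂ hy₂, neg_add]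
      have hxz : polar (plusForm 4 F) x z = 2 * α := by
        rw [polar_comm, hα]
        field_simp
      rw [hxz]
      nth_rw 1 [hx]
      nth_rw 1 [hx]
      rw [h.dia_add_right, h.dia_add_right, h.dia_smul_right, h.dia_smul_right, S.zz, S.zw, hLy]
      module
    obtain ⟨L, τ', hτ', h3', hL, hLz, hd⟩ := conj_idem hG h S.zz (by rw [S.qz]; exact one_ne_zero)
    obtain rfl := conj_one hτ' S.qz hLz hd hp
    obtain ⟨σ', fr'⟩ := fr_conj fr hτ' h3' (Or.inl rfl) hL hd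
    exact H566.RC.type_i hG hE hIH hx hcov fr' fun j => lin_conj (hl j) L

end main

end Cfsg.Agent.H911.RC
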